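import Mathlib
import Cfsg.Agent.Lib.helper15.RankTwo3
import Cfsg.Agent.Lib.helper14.S1456M1
import Cfsg.Agent.Lib.helper15.S1456M2
import Cfsg.Agent.Lib.lead.S1456M4
import Cfsg.Agent.Lib.helper5.S1455M3

set_option autoImplicit false

namespace Cfsg.Agent.Lib.helper11.S1455Q5

open scoped commutatorElement

/-- (Q5) of the S1455 split: in a solvable group of odd order whose normal `p`-subgroup `P` is
narrow, every element of prime order `q > p` centralizes `P`. -/
theorem narrow_prime_centralizes {G : Type*} [Group G] [Finite G] [Group.IsSolvable G]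
    (hodd : Odd (Nat.card G)) (p : ℕ) [Fact p.Prime] (P : Subgroup G) [P.Normal]
    (hP : IsPGroup p P) (E : Subgroup G) (hEP : E ≤ P)
    (hEc : ∀ a ∈ E, ∀ b ∈ E, a * b = b * a) (hEp : ∀ a ∈ E, a ^ p = 1)
    (hr : ∀ B : Subgroup G, B ≤ P → B ≤ Subgroup.centralizer (E : Set G) →
      (∀ a ∈ B, ∀ b ∈ B, a * b = b * a) → (∀ b ∈ B, b ^ p = 1) → Nat.card B ≤ p ^ 2)
    (q : ℕ) (hq : q.Prime) (hpq : p < q) (g : G) (hg : orderOf g = q) :
    g ∈ Subgroup.centralizer (P : Set G) := by
  have hpp : p.Prime := Fact.out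
  have hPn : P.Normal := inferInstance
  have hqp : q.Coprime p := (Nat.coprime_primes hq hpp).mpr (Nat.ne_of_gt hpq)
  have hcop : (orderOf g).Coprime p := by rw [hg]; exact hqp
  by_cases hp2 : p = 2
  · have hPbot : P = ⊥ := by
      obtain ⟨n, hn⟩ := IsPGroup.iff_card.mp hP
      have hdvd : Nat.card P ∣ Nat.card G := Subgroup.card_subgroup_dvd_card P
      rw [hn, hp2] at hdvd
      have hn0 : n = 0 := by
        by_contra hn0
        have h2 : 2 ∣ Nat.card G := dvd_trans (dvd_pow_self 2 hn0) hdvd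
        exact (Nat.not_even_iff_odd.mpr hodd) (even_iff_two_dvd.mpr h2)
      rw [hn0, pow_zero] at hn
      exact Subgroup.card_eq_one.mp hn
    rw [Subgroup.mem_centralizer_iff]
    intro x hx
    rw [SetLike.mem_coe, hPbot] at hx
    rw [Subgroup.mem_bot.mp hx]; simp
  have hp3 : 3 ≤ p := by
    have := hpp.two_le
    omega
  obtain ⟨D, hDP, hDexp, hDcl, hDnorm, hDcrit⟩ :=
    Cfsg.Agent.Lib.helper15.GL2D.exists_critical p hp2 P hP
  have hPtop : Subgroup.normalizer (P : Set G) = ⊤ := Subgroup.normalizer_eq_top_iff.mpr hPn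
  rw [hPtop] at hDnorm
  have hDn : D.Normal := Subgroup.normalizer_eq_top_iff.mp (top_le_iff.mp hDnorm)
  have hmemN : g ∈ Subgroup.normalizer (P : Set G) := by rw [hPtop]; exact Subgroup.mem_top g
  suffices hgD : g ∈ Subgroup.centralizer (D : Set G) from hDcrit g hmemN hcop hgD
  obtain ⟨e, heP, hep, he⟩ :=
    Cfsg.Agent.Lib.helper14.S1456M1.exists_small_centralizer p P hP E hEP hEc hEp hr
  by_cases heD : e ∈ D
  · have hrk := Cfsg.Agent.Lib.helper15.S1456M2.rank_of_mem p D hDexp hDcl e heD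
      (fun B hBD hBe hBc =>
        he B (hBD.trans hDP) hBe hBc (fun b hb => hDexp b (hBD hb)))
    have hsolv : Group.IsSolvable ↥(⊤ : Subgroup G) := inferInstance
    have hoddT : Odd (Nat.card ↥(⊤ : Subgroup G)) := by rw [Subgroup.card_top]; exact hodd
    have hact := Cfsg.Agent.Lib.helper15.GL2D.rank_two_action p hp2 D ⊤ hDexp hDcl hrk
      hDnorm hsolv hoddT
    by_contra hgn
    have hg1 : g ^ (q ^ 1) = 1 := by rw [pow_one, ← hg]; exact pow_orderOf_eq_one g
    have hdvd : q ∣ (p - 1) * (p + 1) :=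
      hact.2 g (Subgroup.mem_top g) q 1 hq (Nat.ne_of_gt hpq) hg1 hgn
    rcases (Nat.Prime.dvd_mul hq).mp hdvd with h1 | h1
    · have h2 : q ≤ p - 1 := Nat.le_of_dvd (by omega) h1
      omega
    · have h2 : q ≤ p + 1 := Nat.le_of_dvd (by omega) h1
      have hqe : q = p + 1 := by omega
      have hpodd : Odd p := hpp.odd_of_ne_two hp2
      have hqev : Even q := by rw [hqe]; exact Odd.add_odd hpodd odd_one
      have hq2 : q = 2 := (Nat.Prime.even_iff hq).mp hqev
      omega
  · have hfix := Cfsg.Agent.Lib.lead.S1456M4.fix_card_le p P D hP hDP hDexp e heP hep heD he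
    refine Cfsg.Agent.Lib.helper5.S1455M3.cent_of_small_fix_coprime p P D hP hDP e heP hfix g ?_
    rw [hg]
    refine Nat.Coprime.mul_right hqp ?_
    refine (Nat.Prime.coprime_iff_not_dvd hq).mpr (fun h => ?_)
    have h2 : q ≤ p - 1 := Nat.le_of_dvd (by omega) h
    omega

end Cfsg.Agent.Lib.helper11.S1455Q5
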